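/-
`π`-homogeneous groups with the `D_π` property: fusion of `π`-elements is controlled by a Hall subgroup.
-/
import Mathlib
import Cfsg.Prelude.Def_HallClasses
import Cfsg.Agent.Lib.NormalPComplement.Reduction
import Cfsg.Agent.Lib.RealChar.BrauerSuzukiHall

set_option autoImplicit false
set_option linter.style.haveILetI false

universe u

namespace CfsgLib.DPiHom

open Cfsg

variable {G : Type u} [Group G] {π : Set ℕ}

/-- `n` has order prime to `π`. -/
def PiPrimeElt (π : Set ℕ) (n : G) : Prop := ∀ r : ℕ, r.Prime → r ∣ orderOf n → r ∉ π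

/-- Every `π`-subgroup is conjugate into `K`, and `π'`-elements normalising a `π`-subgroup centralise it. -/
structure Setup (π : Set ℕ) (K : Subgroup G) : Prop where
  pi : IsPiSubgroup π K
  conj : ∀ X : Subgroup G, IsPiSubgroup π X → ∃ g : G, ∀ x ∈ X, g * x * g⁻¹ ∈ K
  hom : ∀ Q : Subgroup G, IsPiSubgroup π Q → ∀ n ∈ Subgroup.normalizer (Q : Set G),
    PiPrimeElt π n → ∀ q ∈ Q, n * q = q * n

/-- Conjugation by `g` on `Q` is realised inside `K`. -/
def Agree (K Q : Subgroup G) (g : G) : Prop := ∃ k ∈ K, ∀ q ∈ Q, k * q * k⁻¹ = g * q * g⁻¹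

theorem IsPiSubgroup.of_le [Finite G] {X Y : Subgroup G} (hY : IsPiSubgroup π Y) (h : X ≤ Y) :
    IsPiSubgroup π X := fun p hp hd => hY p hp (hd.trans (Subgroup.card_dvd_of_le h))

theorem le_map_conj_iff {X Y : Subgroup G} {g : G} :
    X.map (MulAut.conj g).toMonoidHom ≤ Y ↔ ∀ x ∈ X, g * x * g⁻¹ ∈ Y := by
  rw [Subgroup.map_le_iff_le_comap]
  exact Iff.rfl

theorem card_map_conj (X : Subgroup G) (g : G) :
    Nat.card (X.map (MulAut.conj g).toMonoidHom) = Nat.card X :=
  Subgroup.card_map_of_injective (MulEquiv.injective _)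

/-- Every supplement of a normal subgroup contains a supplement that is a `π`-group, when the `π'`-elements
lie in the normal subgroup. -/
theorem exists_pi_supplement [Finite G] (C : Subgroup G) [C.Normal]
    (hC : ∀ n : G, PiPrimeElt π n → n ∈ C) : ∃ L : Subgroup G, L ⊔ C = ⊤ ∧ IsPiSubgroup π L := by
  obtain ⟨L, hL⟩ := exists_minimal_of_wellFoundedLT (fun L : Subgroup G => L ⊔ C = ⊤) ⟨⊤, top_sup_eq _⟩
  have hLC : L ⊔ C = ⊤ := hL.prop
  refine ⟨L, hLC, fun r hr hrL => ?_⟩
  by_contra hrπ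
  haveI : Fact r.Prime := ⟨hr⟩
  have hsupp : ∀ M : Subgroup L, M.map L.subtype ⊔ C = ⊤ → M = ⊤ := by
    intro M hM
    refine Subgroup.map_injective L.subtype_injective ((le_antisymm ?_ ?_).trans rfl)
    · rw [← MonoidHom.range_eq_map, Subgroup.range_subtype]
      exact Subgroup.map_subtype_le _
    · rw [← MonoidHom.range_eq_map, Subgroup.range_subtype]
      exact hL.le_of_le hM (Subgroup.map_subtype_le _)
  have hD : C.subgroupOf L ≤ frattini L := by
    refine le_iInf₂ fun M hM => ?_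
    by_contra hnle
    refine hM.1 (hsupp M (eq_top_iff.2 ?_))
    have h1 : M ⊔ C.subgroupOf L = ⊤ := hM.2 _ (lt_of_le_of_ne le_sup_left fun h => hnle (h ▸ le_sup_right))
    rw [← hLC]
    refine sup_le ?_ le_sup_right
    calc L = (M ⊔ C.subgroupOf L).map L.subtype := by
          rw [h1, ← MonoidHom.range_eq_map, Subgroup.range_subtype]
      _ ≤ M.map L.subtype ⊔ C := by
          rw [Subgroup.map_sup]
          exact sup_le_sup le_rfl (Subgroup.map_le_iff_le_comap.2 le_rfl)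
  obtain ⟨R⟩ := (Sylow.nonempty : Nonempty (Sylow r L))
  have hRF : (R : Subgroup L) ≤ frattini L := by
    refine le_trans (fun x hx => ?_) hD
    rw [Subgroup.mem_subgroupOf]
    refine hC _ fun q hq hqd => ?_
    rw [Subgroup.orderOf_coe] at hqd
    obtain ⟨k, hk⟩ := R.isPGroup' ⟨x, hx⟩
    have hk' : x ^ r ^ k = 1 := congrArg Subtype.val hk
    rw [(Nat.prime_dvd_prime_iff_eq hq hr).1 (hq.dvd_of_dvd_pow (hqd.trans (orderOf_dvd_of_pow_eq_one hk')))]
    exact hrπ
  have hn : Group.IsNilpotent (frattini L) := frattini_nilpotent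
  haveI : ((R.subtype hRF : Sylow r (frattini L)) : Subgroup (frattini L)).Normal :=
    Sylow.normal_of_all_max_subgroups_normal
      (fun H hH => Subgroup.NormalizerCondition.normal_of_coatom H Group.normalizerCondition_of_isNilpotent hH) _
  haveI : ((R.subtype hRF : Sylow r (frattini L)) : Subgroup (frattini L)).Characteristic :=
    Sylow.characteristic_of_normal _ inferInstance
  haveI : (R : Subgroup L).Normal := by
    have h := ConjAct.normal_of_characteristic_of_normal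
      (H := frattini L) (K := ((R.subtype hRF : Sylow r (frattini L)) : Subgroup (frattini L)))
    rwa [Sylow.coe_subtype, Subgroup.map_subgroupOf_eq_of_le hRF] at h
  obtain ⟨W, hW⟩ := Subgroup.exists_right_complement'_of_coprime R.card_coprime_index
  have hWtop : W = ⊤ := frattini_nongenerating (eq_top_iff.2 (by
    rw [← hW.symm.sup_eq_top]
    exact sup_le_sup le_rfl hRF))
  have hR1 : Nat.card (R : Subgroup L) = 1 := by
    have h := hW.card_mul
    rw [hWtop, Subgroup.card_top] at h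
    exact Nat.eq_of_mul_eq_mul_right Nat.card_pos (h.trans (one_mul _).symm)
  have h2 := R.dvd_card_of_dvd_card hrL
  rw [hR1] at h2
  exact hr.one_lt.ne' (Nat.dvd_one.1 h2)

section Automizer

variable [Finite G] {K : Subgroup G} {p : ℕ} [Fact p.Prime]

/-- The induction hypothesis: fusion of larger `p`-subgroups is controlled. -/
def FusionAbove (p : ℕ) (K : Subgroup G) (m : ℕ) : Prop :=
  ∀ Q : Subgroup G, IsPGroup p Q → Q ≤ K → m < Nat.card Q → ∀ g : G, (∀ q ∈ Q, g * q * g⁻¹ ∈ K) →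
    Agree K Q g

theorem p_mem (hK : IsPiSubgroup π K) {Q : Subgroup G} (hQ : IsPGroup p Q) (hQK : Q ≤ K)
    (hne : Q ≠ ⊥) : p ∈ π := by
  refine hK p Fact.out (dvd_trans ?_ (Subgroup.card_dvd_of_le hQK))
  haveI := (Subgroup.nontrivial_iff_ne_bot Q).2 hne
  obtain ⟨n, hn, hcard⟩ := hQ.nontrivial_iff_card.1 inferInstance
  exact hcard ▸ dvd_pow_self p hn.ne'

theorem isPiSubgroup_of_isPGroup (hp : p ∈ π) {Q : Subgroup G} (hQ : IsPGroup p Q) :
    IsPiSubgroup π Q := by
  intro q hq hd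
  obtain ⟨n, hn⟩ := IsPGroup.iff_card.1 hQ
  rw [hn] at hd
  exact (Nat.prime_dvd_prime_iff_eq hq (Fact.out : p.Prime)).1 (hq.dvd_of_dvd_pow hd) ▸ hp

/-- A `p`-subgroup which contains all larger ones in its normaliser is a Sylow subgroup of `K`. -/
theorem exists_gt_in_normalizer {Q S : Subgroup G} (hS : IsPGroup p S) (hlt : Q < S) :
    ∃ T : Subgroup G, IsPGroup p T ∧ T ≤ S ∧ T ≤ Subgroup.normalizer (Q : Set G) ∧ Q ≤ T ∧
      Nat.card Q < Nat.card T := by
  have h := NormalPComplement.inf_normalizer_gt hS hlt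
  refine ⟨S ⊓ Subgroup.normalizer (Q : Set G), hS.to_le inf_le_left, inf_le_left, inf_le_right, h.le, ?_⟩
  exact lt_of_le_of_ne (Subgroup.card_le_of_le h.le) fun e => h.ne (Subgroup.eq_of_le_of_card_ge h.le e.ge)

/-- Automisers of well placed `p`-subgroups. -/
theorem automizer (hS : Setup π K) {Q : Subgroup G} (hQK : Q ≤ K) (hQ : IsPGroup p Q) (hp : p ∈ π)
    {S : Subgroup G} (hSK : S ≤ K) (hSN : S ≤ Subgroup.normalizer (Q : Set G)) (hQS : Q ≤ S)
    (hSp : IsPGroup p S)
    (hSyl : ∀ T : Subgroup G, IsPGroup p T → T ≤ Subgroup.normalizer (Q : Set G) →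
      ∃ u ∈ Subgroup.normalizer (Q : Set G), ∀ t ∈ T, u * t * u⁻¹ ∈ S)
    (ih : FusionAbove p K (Nat.card Q)) :
    ∀ n ∈ Subgroup.normalizer (Q : Set G), Agree K Q n := by
  classical
  set N := Subgroup.normalizer (Q : Set G) with hN
  set C := Subgroup.centralizer (Q : Set G) with hC
  have hCN : C ≤ N := Subgroup.centralizer_le_normalizer _
  have hCn : ∀ n ∈ N, ∀ c ∈ C, n * c * n⁻¹ ∈ C := by
    intro n hn c hc
    rw [hC, Subgroup.mem_centralizer_iff] at hc ⊢
    intro q hq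
    have h1 := hc _ ((Subgroup.mem_normalizer_iff''.1 hn q).1 hq)
    calc q * (n * c * n⁻¹) = n * (n⁻¹ * q * n * c) * n⁻¹ := by group
      _ = n * (c * (n⁻¹ * q * n)) * n⁻¹ := by rw [h1]
      _ = n * c * n⁻¹ * q := by group
  have hconjQ : ∀ n ∈ N, ∀ q ∈ Q, n * q * n⁻¹ ∈ Q := fun n hn q hq =>
    (Subgroup.mem_normalizer_iff.1 hn q).1 hq
  set E := S ⊓ C with hE
  have hEp : IsPGroup p E := hSp.to_le inf_le_left
  -- `E` is a Sylow subgroup of `C`
  have hEmax : ∀ T : Subgroup G, IsPGroup p T → T ≤ C → Nat.card T ≤ Nat.card E := by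
    intro T hT hTC
    obtain ⟨u, hu, huT⟩ := hSyl T hT (hTC.trans hCN)
    rw [← card_map_conj T u]
    exact Subgroup.card_le_of_le (le_map_conj_iff.2 fun t ht =>
      Subgroup.mem_inf.2 ⟨huT t ht, hCn u hu t (hTC ht)⟩)
  have hEC : ∀ T : Sylow p C, Nat.card T = Nat.card E := by
    intro T
    refine le_antisymm ?_ ?_
    · have := hEmax _ (T.isPGroup'.map C.subtype) (Subgroup.map_subtype_le _)
      rwa [Subgroup.card_map_of_injective C.subtype_injective] at this
    · obtain ⟨T', hT'⟩ := (hEp.comap_of_injective C.subtype C.subtype_injective).exists_le_sylow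
      rw [Nat.card_congr (T.equiv T').toEquiv]
      refine le_trans (le_of_eq ?_) (Subgroup.card_le_of_le hT')
      exact (Nat.card_congr (Subgroup.subgroupOfEquivOfLe (inf_le_right : E ≤ C)).toEquiv).symm
  by_cases hEQ : E ≤ Q
  swap
  · -- Frattini argument and induction
    intro n hn
    set D := Q ⊔ E with hD
    have hDlt : Nat.card Q < Nat.card D :=
      lt_of_le_of_ne (Subgroup.card_le_of_le le_sup_left) fun e =>
        hEQ (le_sup_right.trans (Subgroup.eq_of_le_of_card_ge le_sup_left e.ge).ge)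
    have hDS : D ≤ S := sup_le hQS inf_le_left
    obtain ⟨T₀⟩ := (Sylow.nonempty : Nonempty (Sylow p C))
    let Ec : Sylow p C := Sylow.ofCard (E.subgroupOf C) (by
      rw [Nat.card_congr (Subgroup.subgroupOfEquivOfLe (inf_le_right : E ≤ C)).toEquiv, ← hEC T₀,
        T₀.card_eq_multiplicity])
    have hE'C : E.map (MulAut.conj n).toMonoidHom ≤ C := le_map_conj_iff.2 fun e he => hCn n hn e he.2
    let E' : Sylow p C := Sylow.ofCard ((E.map (MulAut.conj n).toMonoidHom).subgroupOf C) (by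
      rw [Nat.card_congr (Subgroup.subgroupOfEquivOfLe hE'C).toEquiv, card_map_conj, ← hEC T₀,
        T₀.card_eq_multiplicity])
    obtain ⟨c, hc⟩ := MulAction.exists_smul_eq C E' Ec
    have hmE : ∀ e ∈ E, (c : G) * n * e * ((c : G) * n)⁻¹ ∈ E := by
      intro e he
      have h1 : (⟨n * e * n⁻¹, hCn n hn e he.2⟩ : C) ∈ (E' : Subgroup C) := ⟨e, he, rfl⟩
      have h2 : c * ⟨n * e * n⁻¹, hCn n hn e he.2⟩ * c⁻¹ ∈ (Ec : Subgroup C) := by
        rw [← hc, Sylow.coe_subgroup_smul]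
        exact ⟨_, h1, rfl⟩
      have h3 : (c : G) * (n * e * n⁻¹) * (c : G)⁻¹ ∈ E := h2
      convert h3 using 1
      group
    have hmN : (c : G) * n ∈ N := N.mul_mem (hCN c.2) hn
    obtain ⟨k, hk, hkD⟩ := ih D (hSp.to_le hDS) (hDS.trans hSK) hDlt ((c : G) * n) (by
      have hle : D ≤ D.comap (MulAut.conj ((c : G) * n)).toMonoidHom := sup_le
        (fun q hq => Subgroup.mem_sup_left (hconjQ _ hmN q hq))
        (fun e he => Subgroup.mem_sup_right (hmE e he))
      exact fun d hd => hSK (hDS (hle hd)))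
    refine ⟨k, hk, fun q hq => (hkD q (Subgroup.mem_sup_left hq)).trans ?_⟩
    have h3 := Subgroup.mem_centralizer_iff.1 c.2 _ (hconjQ n hn q hq)
    calc (c : G) * n * q * ((c : G) * n)⁻¹ = (c : G) * (n * q * n⁻¹) * (c : G)⁻¹ := by group
      _ = n * q * n⁻¹ * (c : G) * (c : G)⁻¹ := by rw [h3]
      _ = n * q * n⁻¹ := by group
  · -- a `π`-supplement of the centraliser
    have hQn : ∀ (n : N), ∀ q ∈ Q.subgroupOf N, n * q * n⁻¹ ∈
        Q.subgroupOf N := fun n q hq => hconjQ n n.2 _ hq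
    set Q' := Q.subgroupOf N with hQ'
    haveI hQ'n : Q'.Normal := ⟨fun q hq n => hQn n q hq⟩
    set C' := C.subgroupOf N with hC'
    haveI : C'.Normal := ⟨fun c hc n => hCn n n.2 _ hc⟩
    obtain ⟨L, hLC, hLpi⟩ := exists_pi_supplement (π := π) C' (by
      intro n hn
      rw [Subgroup.mem_subgroupOf, hC, Subgroup.mem_centralizer_iff]
      intro q hq
      refine (hS.hom Q (IsPiSubgroup.of_le hS.pi hQK) n n.2 ?_ q hq).symm
      intro r hr hrd
      exact hn r hr (by rwa [Subgroup.orderOf_coe] at hrd))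
    set L₁ := L ⊔ Q' with hL₁
    have hL₁pi : IsPiSubgroup π L₁ := by
      intro r hr hrd
      have h1 := Subgroup.card_mul_index (Q'.subgroupOf L₁)
      rw [Nat.card_congr (Subgroup.subgroupOfEquivOfLe (le_sup_right : Q' ≤ L₁)).toEquiv] at h1
      rw [← h1] at hrd
      rcases hr.dvd_mul.1 hrd with h | h
      · rw [Nat.card_congr (Subgroup.subgroupOfEquivOfLe (Subgroup.le_normalizer : Q ≤ N)).toEquiv] at h
        exact hS.pi r hr (h.trans (Subgroup.card_dvd_of_le hQK))
      · change r ∣ Q'.relIndex L₁ at h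
        rw [hL₁, Subgroup.relIndex_sup_right] at h
        exact hLpi r hr (h.trans ((Q'.subgroupOf L).index_dvd_card))
    have hL₁C : L₁ ⊔ C' = ⊤ := eq_top_iff.2 (hLC.ge.trans (sup_le_sup le_sup_left le_rfl))
    -- `L₁` contains a Sylow subgroup of `N`
    have hindex : ¬ p ∣ L₁.index := by
      have h1 := C'.card_mul_index
      have h2 : C'.index = C'.relIndex L₁ := by
        rw [← Subgroup.relIndex_sup_right (H := L₁), hL₁C, Subgroup.relIndex_top_right]
      have h3 : Nat.card (C' ⊓ L₁ : Subgroup N) * C'.relIndex L₁ = Nat.card L₁ := by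
        have := Subgroup.relIndex_mul_relIndex (⊥ : Subgroup N) (C' ⊓ L₁) L₁ bot_le inf_le_right
        rwa [Subgroup.relIndex_bot_left, Subgroup.relIndex_bot_left, Subgroup.inf_relIndex_right] at this
      have h4 := L₁.card_mul_index
      have h5 : Nat.card C' = Nat.card (C' ⊓ L₁ : Subgroup N) * L₁.index := by
        refine Nat.eq_of_mul_eq_mul_right (show 0 < C'.index from
          Nat.pos_of_ne_zero Subgroup.index_ne_zero_of_finite) ?_
        rw [h1, ← h4, ← h3, h2]
        ring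
      have hle : E.subgroupOf N ≤ C' ⊓ L₁ := le_inf (fun x hx => hx.2)
        (fun x hx => Subgroup.mem_sup_right (hEQ hx))
      have hdvd : Nat.card E ∣ Nat.card (C' ⊓ L₁ : Subgroup N) := by
        rw [← Nat.card_congr (Subgroup.subgroupOfEquivOfLe ((inf_le_left : E ≤ S).trans hSN)).toEquiv]
        exact Subgroup.card_dvd_of_le hle
      obtain ⟨T₀⟩ := (Sylow.nonempty : Nonempty (Sylow p C))
      have h6 : (T₀ : Subgroup C).index * Nat.card E = Nat.card C' := by
        rw [← hEC T₀, mul_comm, Subgroup.card_mul_index,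
          Nat.card_congr (Subgroup.subgroupOfEquivOfLe hCN).toEquiv]
      obtain ⟨b, hb⟩ := hdvd
      intro hdiv
      refine T₀.not_dvd_index (dvd_trans hdiv ⟨b, ?_⟩)
      refine Nat.eq_of_mul_eq_mul_right (Nat.card_pos (α := E)) ?_
      rw [h6, h5, hb]
      ring
    obtain ⟨T⟩ := (Sylow.nonempty : Nonempty (Sylow p L₁))
    have hTcard : Nat.card ((T : Subgroup L₁).map L₁.subtype) = p ^ (Nat.card N).factorization p := by
      rw [Subgroup.card_map_of_injective L₁.subtype_injective, T.card_eq_multiplicity,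
        ← L₁.card_mul_index, Nat.factorization_mul Nat.card_pos.ne' Subgroup.index_ne_zero_of_finite,
        Finsupp.add_apply, Nat.factorization_eq_zero_of_not_dvd hindex, add_zero]
    let TN : Sylow p N := Sylow.ofCard _ hTcard
    obtain ⟨TS, hTS⟩ := (hSp.comap_of_injective N.subtype N.subtype_injective).exists_le_sylow
    obtain ⟨u, hu⟩ := MulAction.exists_smul_eq N TN TS
    -- the conjugate supplement
    set L₂ := L₁.map (MulAut.conj u).toMonoidHom with hL₂
    have hL₂C : L₂ ⊔ C' = ⊤ := by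
      have h := congrArg (Subgroup.map (MulAut.conj u).toMonoidHom) hL₁C
      rw [Subgroup.map_sup, Subgroup.map_top_of_surjective _ (MulEquiv.surjective _)] at h
      rw [hL₂]
      refine eq_top_iff.2 (h.ge.trans (sup_le_sup le_rfl ?_))
      rintro _ ⟨c, hc, rfl⟩
      exact Subgroup.Normal.conj_mem inferInstance c hc u
    have hSL₂ : S.subgroupOf N ≤ L₂ := by
      refine hTS.trans ?_
      rw [← hu, Sylow.coe_subgroup_smul]
      rintro _ ⟨t, ht, rfl⟩
      refine ⟨t, ?_, rfl⟩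
      obtain ⟨t', -, rfl⟩ := ht
      exact t'.2
    set L₃ := L₂.map N.subtype with hL₃
    have hL₃pi : IsPiSubgroup π L₃ := by
      intro r hr hrd
      rw [hL₃, Subgroup.card_map_of_injective N.subtype_injective, hL₂, card_map_conj] at hrd
      exact hL₁pi r hr hrd
    obtain ⟨h, hh⟩ := hS.conj L₃ hL₃pi
    have hSh : ∀ s ∈ S, h * s * h⁻¹ ∈ K := fun s hs =>
      hh s ⟨⟨s, hSN hs⟩, hSL₂ (show (⟨s, hSN hs⟩ : N) ∈ S.subgroupOf N from hs), rfl⟩
    obtain ⟨m, hmN, hm⟩ : ∃ m ∈ N, ∀ l ∈ L₃, m * l * m⁻¹ ∈ K := by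
      by_cases hSQ : Nat.card Q < Nat.card S
      · obtain ⟨k, hk, hk'⟩ := ih S hSp hSK hSQ h hSh
        refine ⟨k⁻¹ * h, hCN (Subgroup.mem_centralizer_iff.2 fun q hq => ?_), fun l hl => ?_⟩
        · have h1 := hk' q (hQS hq)
          calc q * (k⁻¹ * h) = k⁻¹ * (k * q * k⁻¹) * h := by group
            _ = k⁻¹ * (h * q * h⁻¹) * h := by rw [h1]
            _ = k⁻¹ * h * q := by group
        · have h1 := K.mul_mem (K.mul_mem (K.inv_mem hk) (hh l hl)) hk
          convert h1 using 1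
          group
      · have hQeq : S = Q := (Subgroup.eq_of_le_of_card_ge hQS (not_lt.1 hSQ)).symm
        have hmax : ∀ T : Sylow p K, Q ≤ (T : Subgroup K).map K.subtype →
            Q = (T : Subgroup K).map K.subtype := by
          intro T hT
          by_contra hne
          obtain ⟨T', hT'p, -, hT'N, -, hlt⟩ :=
            exists_gt_in_normalizer (T.isPGroup'.map K.subtype) (lt_of_le_of_ne hT hne)
          obtain ⟨v, -, hv⟩ := hSyl T' hT'p hT'N
          have h1 := Subgroup.card_le_of_le (le_map_conj_iff.2 hv)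
          rw [card_map_conj, hQeq] at h1
          omega
        obtain ⟨A, hA⟩ := (hQ.comap_of_injective K.subtype K.subtype_injective).exists_le_sylow
        have hAQ := hmax A (fun q hq => ⟨⟨q, hQK hq⟩, hA hq, rfl⟩)
        have hQhK : Q.map (MulAut.conj h).toMonoidHom ≤ K := le_map_conj_iff.2 fun q hq => hSh q (hQS hq)
        let B : Sylow p K := Sylow.ofCard ((Q.map (MulAut.conj h).toMonoidHom).subgroupOf K) (by
          rw [Nat.card_congr (Subgroup.subgroupOfEquivOfLe hQhK).toEquiv, card_map_conj]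
          conv_lhs => rw [hAQ]
          rw [Subgroup.card_map_of_injective K.subtype_injective, A.card_eq_multiplicity])
        obtain ⟨k, hk⟩ := MulAction.exists_smul_eq K B A
        refine ⟨(k : G) * h, ?_, fun l hl => ?_⟩
        · refine CoprimeAction.mem_normalizer_of_conj_mem fun q hq => ?_
          have h1 : (⟨h * q * h⁻¹, hQhK ⟨q, hq, rfl⟩⟩ : K) ∈ (B : Subgroup K) := ⟨q, hq, rfl⟩
          have h2 : k * ⟨h * q * h⁻¹, hQhK ⟨q, hq, rfl⟩⟩ * k⁻¹ ∈ (A : Subgroup K) := by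
            rw [← hk, Sylow.coe_subgroup_smul]
            exact ⟨_, h1, rfl⟩
          rw [hAQ]
          refine ⟨_, h2, ?_⟩
          simp [mul_assoc]
        · have h1 := K.mul_mem (K.mul_mem k.2 (hh l hl)) (K.inv_mem k.2)
          convert h1 using 1
          group
    intro n hn
    obtain ⟨l, hl, c, hc, hlc⟩ := Subgroup.mem_sup_of_normal_right.1
      (hL₂C.symm ▸ Subgroup.mem_top (⟨m⁻¹ * n * m, N.mul_mem (N.mul_mem (N.inv_mem hmN) hn) hmN⟩ : N) :
        (⟨m⁻¹ * n * m, N.mul_mem (N.mul_mem (N.inv_mem hmN) hn) hmN⟩ : N) ∈ L₂ ⊔ C')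
    refine ⟨m * (l : G) * m⁻¹, hm _ ⟨l, hl, rfl⟩, fun q hq => ?_⟩
    have hlc' : (l : G) * (c : G) = m⁻¹ * n * m := congrArg Subtype.val hlc
    have hq' : m⁻¹ * q * m ∈ Q := (Subgroup.mem_normalizer_iff''.1 hmN q).1 hq
    have h1 : (c : G) * (m⁻¹ * q * m) * (c : G)⁻¹ = m⁻¹ * q * m := by
      rw [← Subgroup.mem_centralizer_iff.1 (show (c : G) ∈ C from hc) _ hq']
      group
    calc m * (l : G) * m⁻¹ * q * (m * (l : G) * m⁻¹)⁻¹
        = m * ((l : G) * (m⁻¹ * q * m) * (l : G)⁻¹) * m⁻¹ := by group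
      _ = m * ((l : G) * ((c : G) * (m⁻¹ * q * m) * (c : G)⁻¹) * (l : G)⁻¹) * m⁻¹ := by rw [h1]
      _ = m * ((l : G) * (c : G) * (m⁻¹ * q * m) * ((l : G) * (c : G))⁻¹) * m⁻¹ := by group
      _ = m * ((m⁻¹ * n * m) * (m⁻¹ * q * m) * (m⁻¹ * n * m)⁻¹) * m⁻¹ := by rw [hlc']
      _ = n * q * n⁻¹ := by group

/-- Fusion of `p`-subgroups is controlled by `K`. -/
theorem pGroup_fusion (hS : Setup π K) : ∀ (d : ℕ) (Q : Subgroup G), Nat.card G - Nat.card Q = d →
    IsPGroup p Q → Q ≤ K → ∀ g : G, (∀ q ∈ Q, g * q * g⁻¹ ∈ K) → Agree K Q g := by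
  intro d
  induction d using Nat.strong_induction_on with
  | _ d ihd =>
    intro Q hd hQ hQK g hg
    by_cases hne : Q = ⊥
    · refine ⟨1, K.one_mem, fun q hq => ?_⟩
      rw [hne, Subgroup.mem_bot] at hq
      simp [hq]
    have hp := p_mem hS.pi hQ hQK hne
    have ih : FusionAbove p K (Nat.card Q) := fun Q₁ hQ₁ hQ₁K hlt =>
      ihd _ (by have := Q₁.card_le_card_group; omega) Q₁ rfl hQ₁ hQ₁K
    set N := Subgroup.normalizer (Q : Set G) with hN
    obtain ⟨T₀, hT₀⟩ := (hQ.comap_of_injective N.subtype N.subtype_injective).exists_le_sylow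
    obtain ⟨z, hz⟩ := hS.conj _ (isPiSubgroup_of_isPGroup hp (T₀.isPGroup'.map N.subtype))
    set Q₀ := Q.map (MulAut.conj z).toMonoidHom with hQ₀
    set S₀ := ((T₀ : Subgroup N).map N.subtype).map (MulAut.conj z).toMonoidHom with hS₀
    have hN₀ : ∀ u : G, u ∈ N → z * u * z⁻¹ ∈ Subgroup.normalizer (Q₀ : Set G) := by
      intro u hu
      refine CoprimeAction.mem_normalizer_of_conj_mem ?_
      rintro _ ⟨q, hq, rfl⟩
      refine ⟨u * q * u⁻¹, (Subgroup.mem_normalizer_iff.1 hu q).1 hq, ?_⟩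
      simp [mul_assoc]
    have hN₁ : ∀ u : G, u ∈ Subgroup.normalizer (Q₀ : Set G) → z⁻¹ * u * z ∈ N := by
      intro u hu
      refine CoprimeAction.mem_normalizer_of_conj_mem fun q hq => ?_
      obtain ⟨q', hq', hqq⟩ := (Subgroup.mem_normalizer_iff.1 hu _).1 ⟨q, hq, rfl⟩
      have hqq' : z * q' * z⁻¹ = u * (z * q * z⁻¹) * u⁻¹ := hqq
      have h1 : z⁻¹ * u * z * q * (z⁻¹ * u * z)⁻¹ = q' := by
        calc z⁻¹ * u * z * q * (z⁻¹ * u * z)⁻¹ = z⁻¹ * (u * (z * q * z⁻¹) * u⁻¹) * z := by group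
          _ = z⁻¹ * (z * q' * z⁻¹) * z := by rw [hqq']
          _ = q' := by group
      rwa [h1]
    have hQ₀K : Q₀ ≤ K := le_map_conj_iff.2 fun q hq =>
      hz q ⟨⟨q, Subgroup.le_normalizer hq⟩, hT₀ hq, rfl⟩
    have hcardQ₀ : Nat.card Q₀ = Nat.card Q := card_map_conj Q z
    have hS₀N : S₀ ≤ Subgroup.normalizer (Q₀ : Set G) := by
      rintro _ ⟨_, ⟨t, -, rfl⟩, rfl⟩
      exact hN₀ _ t.2
    have hSyl : ∀ T : Subgroup G, IsPGroup p T → T ≤ Subgroup.normalizer (Q₀ : Set G) →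
        ∃ u ∈ Subgroup.normalizer (Q₀ : Set G), ∀ t ∈ T, u * t * u⁻¹ ∈ S₀ := by
      intro T hT hTN
      have hT'N : T.map (MulAut.conj z⁻¹).toMonoidHom ≤ N := le_map_conj_iff.2 fun t ht => by
        rw [inv_inv]; exact hN₁ t (hTN ht)
      obtain ⟨T₁, hT₁⟩ := ((hT.map (MulAut.conj z⁻¹).toMonoidHom).comap_of_injective N.subtype
        N.subtype_injective).exists_le_sylow
      obtain ⟨v, hv⟩ := MulAction.exists_smul_eq N T₁ T₀
      refine ⟨z * (v : G) * z⁻¹, hN₀ _ v.2, fun t ht => ?_⟩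
      have h1 : z⁻¹ * t * z ∈ N := hN₁ t (hTN ht)
      have h2 : v * ⟨_, h1⟩ * v⁻¹ ∈ (T₀ : Subgroup N) := by
        rw [← hv, Sylow.coe_subgroup_smul]
        exact ⟨_, hT₁ ⟨t, ht, by simp⟩, rfl⟩
      refine ⟨_, ⟨_, h2, rfl⟩, ?_⟩
      simp [mul_assoc]
    have hAut := automizer hS hQ₀K (hQ.map _) hp (le_map_conj_iff.2 hz) hS₀N
      (Subgroup.map_mono fun q hq => ⟨⟨q, Subgroup.le_normalizer hq⟩, hT₀ hq, rfl⟩)
      ((T₀.isPGroup'.map _).map _) hSyl (hcardQ₀ ▸ ih)
    have key : ∀ Q₁ : Subgroup G, IsPGroup p Q₁ → Q₁ ≤ K → ∀ w : G,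
        Q₁.map (MulAut.conj w).toMonoidHom = Q₀ → Agree K Q₁ w := by
      intro Q₁ hQ₁ hQ₁K w hw
      have hcard₁ : Nat.card Q₁ = Nat.card Q := by rw [← hcardQ₀, ← hw, card_map_conj]
      have hwQ : ∀ q ∈ Q₁, w * q * w⁻¹ ∈ Q₀ := fun q hq => hw ▸ ⟨q, hq, rfl⟩
      suffices h : ∃ k ∈ K, w * k⁻¹ ∈ Subgroup.normalizer (Q₀ : Set G) ∧ ∀ q ∈ Q₁, k * q * k⁻¹ ∈ Q₀ by
        obtain ⟨k, hk, hn, hkQ⟩ := h
        obtain ⟨k', hk', hk'Q⟩ := hAut _ hn
        refine ⟨k' * k, K.mul_mem hk' hk, fun q hq => ?_⟩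
        calc k' * k * q * (k' * k)⁻¹ = k' * (k * q * k⁻¹) * k'⁻¹ := by group
          _ = w * k⁻¹ * (k * q * k⁻¹) * (w * k⁻¹)⁻¹ := hk'Q _ (hkQ q hq)
          _ = w * q * w⁻¹ := by group
      obtain ⟨A, hA⟩ := (hQ₁.comap_of_injective K.subtype K.subtype_injective).exists_le_sylow
      have hQA : Q₁ ≤ (A : Subgroup K).map K.subtype := fun q hq => ⟨⟨q, hQ₁K hq⟩, hA hq, rfl⟩
      rcases hQA.lt_or_eq with hlt | heq
      · obtain ⟨T, hTp, hTA, hTN, hQT, hTlt⟩ := exists_gt_in_normalizer (A.isPGroup'.map K.subtype) hlt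
        have hwT : T.map (MulAut.conj w).toMonoidHom ≤ Subgroup.normalizer (Q₀ : Set G) :=
          le_map_conj_iff.2 fun t ht => by
            refine CoprimeAction.mem_normalizer_of_conj_mem fun x hx => ?_
            rw [← hw] at hx ⊢
            obtain ⟨q, hq, rfl⟩ := hx
            refine ⟨t * q * t⁻¹, (Subgroup.mem_normalizer_iff.1 (hTN ht) q).1 hq, ?_⟩
            simp [mul_assoc]
        obtain ⟨u, hu, huT⟩ := hSyl _ (hTp.map _) hwT
        obtain ⟨k, hk, hkT⟩ := ih T hTp (hTA.trans (Subgroup.map_subtype_le _)) (hcard₁ ▸ hTlt)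
          (u * w) (fun t ht => le_map_conj_iff.2 hz (by
            have := huT _ ⟨t, ht, rfl⟩
            convert this using 1
            simp [mul_assoc]))
        have hkQ : ∀ q ∈ Q₁, k * q * k⁻¹ ∈ Q₀ := fun q hq => by
          rw [hkT q (hQT hq)]
          have := (Subgroup.mem_normalizer_iff.1 hu _).1 (hwQ q hq)
          convert this using 1
          group
        refine ⟨k, hk, CoprimeAction.mem_normalizer_of_conj_mem fun x hx => ?_, hkQ⟩
        have hle : Q₁.map (MulAut.conj k).toMonoidHom = Q₀ :=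
          Subgroup.eq_of_le_of_card_ge (le_map_conj_iff.2 hkQ) (by rw [hcardQ₀, card_map_conj, hcard₁])
        rw [← hle] at hx
        obtain ⟨q, hq, rfl⟩ := hx
        have h := hwQ q hq
        simpa [mul_assoc] using h
      · let B : Sylow p K := Sylow.ofCard (Q₀.subgroupOf K) (by
          rw [Nat.card_congr (Subgroup.subgroupOfEquivOfLe hQ₀K).toEquiv, hcardQ₀, ← hcard₁]
          conv_lhs => rw [heq]
          rw [Subgroup.card_map_of_injective K.subtype_injective, A.card_eq_multiplicity])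
        obtain ⟨k, hk⟩ := MulAction.exists_smul_eq K A B
        have hkQ : ∀ q ∈ Q₁, (k : G) * q * (k : G)⁻¹ ∈ Q₀ := fun q hq => by
          have h2 : k * ⟨q, hQ₁K hq⟩ * k⁻¹ ∈ (B : Subgroup K) := by
            rw [← hk, Sylow.coe_subgroup_smul]
            exact ⟨_, hA hq, rfl⟩
          exact h2
        refine ⟨k, k.2, CoprimeAction.mem_normalizer_of_conj_mem fun x hx => ?_, hkQ⟩
        have hle : Q₁.map (MulAut.conj (k : G)).toMonoidHom = Q₀ :=
          Subgroup.eq_of_le_of_card_ge (le_map_conj_iff.2 hkQ) (by rw [hcardQ₀, card_map_conj, hcard₁])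
        rw [← hle] at hx
        obtain ⟨q, hq, rfl⟩ := hx
        have h := hwQ q hq
        simpa [mul_assoc] using h
    obtain ⟨k₁, hk₁, hk₁Q⟩ := key Q hQ hQK z rfl
    obtain ⟨k₂, hk₂, hk₂Q⟩ := key (Q.map (MulAut.conj g).toMonoidHom) (hQ.map _) (le_map_conj_iff.2 hg)
      (z * g⁻¹) (by
        rw [Subgroup.map_map, hQ₀]
        congr 1
        ext x
        simp [mul_assoc])
    refine ⟨k₂⁻¹ * k₁, K.mul_mem (K.inv_mem hk₂) hk₁, fun q hq => ?_⟩
    have h1 := hk₁Q q hq
    have h2 : k₂ * (g * q * g⁻¹) * k₂⁻¹ = z * g⁻¹ * (g * q * g⁻¹) * (z * g⁻¹)⁻¹ :=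
      hk₂Q _ ⟨q, hq, rfl⟩
    calc k₂⁻¹ * k₁ * q * (k₂⁻¹ * k₁)⁻¹ = k₂⁻¹ * (k₁ * q * k₁⁻¹) * k₂ := by group
      _ = k₂⁻¹ * (z * g⁻¹ * (g * q * g⁻¹) * (z * g⁻¹)⁻¹) * k₂ := by rw [h1]; group
      _ = g * q * g⁻¹ := by rw [← h2]; group

end Automizer

/-- A `π`-element is the product of its `p`-part and a power with order prime to `p`. -/
theorem exists_parts [Finite G] (x : G) {p : ℕ} (hp : p.Prime) (hd : p ∣ orderOf x) :
    ∃ a b : ℤ, x ^ a * x ^ b = x ∧ (∃ e, (x ^ a) ^ p ^ e = 1) ∧ orderOf (x ^ b) < orderOf x := by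
  obtain ⟨e, m, hm, hn⟩ := Nat.exists_eq_pow_mul_and_not_dvd (orderOf_pos x).ne' p hp.ne_one
  have hcop : Nat.gcd (p ^ e) m = 1 := (hp.coprime_iff_not_dvd.2 hm).pow_left e
  have hb := Nat.gcd_eq_gcd_ab (p ^ e) m
  rw [hcop] at hb
  refine ⟨(m : ℤ) * Nat.gcdB (p ^ e) m, ((p ^ e : ℕ) : ℤ) * Nat.gcdA (p ^ e) m, ?_, ⟨e, ?_⟩, ?_⟩
  · rw [← zpow_add, add_comm, ← hb, Nat.cast_one, zpow_one]
  · rw [← zpow_natCast, ← zpow_mul,
      show (m : ℤ) * Nat.gcdB (p ^ e) m * ((p ^ e : ℕ) : ℤ) = (orderOf x : ℤ) * Nat.gcdB (p ^ e) m by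
        rw [hn, Nat.cast_mul]; ring,
      zpow_mul, zpow_natCast, pow_orderOf_eq_one, one_zpow]
  · have h1 : (x ^ (((p ^ e : ℕ) : ℤ) * Nat.gcdA (p ^ e) m)) ^ m = 1 := by
      rw [← zpow_natCast, ← zpow_mul,
        show ((p ^ e : ℕ) : ℤ) * Nat.gcdA (p ^ e) m * (m : ℤ) = (orderOf x : ℤ) * Nat.gcdA (p ^ e) m by
          rw [hn, Nat.cast_mul]; ring,
        zpow_mul, zpow_natCast, pow_orderOf_eq_one, one_zpow]
    have hm0 : 0 < m := Nat.pos_of_ne_zero fun h => hm (h ▸ dvd_zero p)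
    refine lt_of_le_of_lt (orderOf_le_of_pow_eq_one hm0 h1) ?_
    rw [hn]
    refine lt_mul_of_one_lt_left hm0 (Nat.one_lt_pow (fun he => ?_) hp.one_lt)
    rw [he, pow_zero, one_mul] at hn
    exact hm (hn ▸ hd)

/-- Fusion of `π`-elements is controlled by `K`. -/
theorem element_fusion : ∀ (n : ℕ) {G : Type u} [Group G] [Finite G] {K : Subgroup G}, Setup π K →
    ∀ x ∈ K, orderOf x = n → ∀ g : G, g * x * g⁻¹ ∈ K → ∃ k ∈ K, k * x * k⁻¹ = g * x * g⁻¹ := by
  intro n
  induction n using Nat.strong_induction_on with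
  | _ n ih =>
    intro G _ _ K hS x hx hn g hg
    by_cases hx1 : x = 1
    · exact ⟨1, K.one_mem, by simp [hx1]⟩
    obtain ⟨p, hp, hpd⟩ := Nat.exists_prime_and_dvd (show orderOf x ≠ 1 from fun h => hx1 (orderOf_eq_one_iff.1 h))
    haveI : Fact p.Prime := ⟨hp⟩
    obtain ⟨a, b, hab, ⟨e, hua⟩, hvlt⟩ := exists_parts x hp hpd
    set u := x ^ a with hu
    set v := x ^ b with hv
    have hgu : g * u * g⁻¹ ∈ K := by rw [hu, ← conj_zpow]; exact K.zpow_mem hg a
    have hgv : g * v * g⁻¹ ∈ K := by rw [hv, ← conj_zpow]; exact K.zpow_mem hg b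
    have hUp : IsPGroup p (Subgroup.zpowers u) := by
      rintro ⟨y, hy⟩
      obtain ⟨i, rfl⟩ := Subgroup.mem_zpowers_iff.1 hy
      refine ⟨e, Subtype.ext ?_⟩
      show (u ^ i) ^ p ^ e = 1
      rw [← zpow_natCast, ← zpow_mul, mul_comm, zpow_mul, zpow_natCast, hua, one_zpow]
    obtain ⟨k, hk, hkU⟩ := pGroup_fusion hS _ (Subgroup.zpowers u) rfl hUp
      (by rw [Subgroup.zpowers_le]; exact K.zpow_mem hx a) g (by
        intro y hy
        obtain ⟨i, rfl⟩ := Subgroup.mem_zpowers_iff.1 hy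
        rw [← conj_zpow]
        exact K.zpow_mem hgu i)
    have hku := hkU u (Subgroup.mem_zpowers u)
    set g' := k⁻¹ * g with hg'
    set C := Subgroup.centralizer ({u} : Set G) with hC
    have hg'C : g' ∈ C := by
      rw [hC, Subgroup.mem_centralizer_singleton_iff, hg']
      calc k⁻¹ * g * u = k⁻¹ * (g * u * g⁻¹) * g := by group
        _ = k⁻¹ * (k * u * k⁻¹) * g := by rw [hku]
        _ = u * (k⁻¹ * g) := by group
    have hxu : Commute x u := Commute.self_zpow x a
    have hxC : ∀ i : ℤ, x ^ i ∈ C := fun i => by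
      rw [hC, Subgroup.mem_centralizer_singleton_iff]
      exact (hxu.zpow_left i).eq
    have hvC : v ∈ C := hxC b
    have hg'v : g' * v * g'⁻¹ ∈ K := by
      have := K.mul_mem (K.mul_mem (K.inv_mem hk) hgv) hk
      convert this using 1
      rw [hg']
      group
    -- the inherited setup
    have hSC : Setup π (K.subgroupOf C) := by
      refine ⟨fun r hr hrd => hS.pi r hr (hrd.trans ?_), fun X hX => ?_, fun Q hQ n hn hn' q hq => ?_⟩
      · rw [← Subgroup.card_map_of_injective C.subtype_injective]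
        exact Subgroup.card_dvd_of_le (by rw [Subgroup.subgroupOf_map_subtype]; exact inf_le_left)
      · set X' := X.map C.subtype with hX'
        set U := Subgroup.zpowers u with hU
        have hUX : X' ≤ Subgroup.normalizer (U : Set G) := by
          rintro _ ⟨y, -, rfl⟩
          refine Subgroup.centralizer_le_normalizer _ ?_
          rw [hU, Subgroup.mem_centralizer_iff]
          intro w hw
          obtain ⟨i, rfl⟩ := Subgroup.mem_zpowers_iff.1 hw
          exact ((Commute.zpow_left (Subgroup.mem_centralizer_iff.1 y.2 u rfl) i)).eq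
        have hpi : IsPiSubgroup π (U ⊔ X') := by
          intro r hr hrd
          haveI : (U.subgroupOf (U ⊔ X')).Normal := by
            rw [Subgroup.normal_subgroupOf_iff_le_normalizer le_sup_left]
            exact sup_le Subgroup.le_normalizer hUX
          rw [← (U.subgroupOf (U ⊔ X')).card_mul_index] at hrd
          rcases hr.dvd_mul.1 hrd with h | h
          · rw [Nat.card_congr (Subgroup.subgroupOfEquivOfLe (le_sup_left : U ≤ U ⊔ X')).toEquiv] at h
            exact hS.pi r hr (h.trans (Subgroup.card_dvd_of_le (by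
              rw [hU, Subgroup.zpowers_le]; exact K.zpow_mem hx a)))
          · haveI : (U.subgroupOf (Subgroup.normalizer (U : Set G))).Normal := Subgroup.normal_in_normalizer
            change r ∣ U.relIndex (U ⊔ X') at h
            have h' : r ∣ Nat.card X' := by
              have e1 : U.relIndex (U ⊔ X') = U.relIndex X' := by
                set NU := Subgroup.normalizer (U : Set G) with hNU
                rw [← Subgroup.relIndex_subgroupOf (sup_le Subgroup.le_normalizer hUX : U ⊔ X' ≤ NU),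
                  ← Subgroup.relIndex_subgroupOf (hUX : X' ≤ NU),
                  ← Subgroup.relIndex_sup_left (H := X'.subgroupOf NU)]
                congr 1
                exact (Subgroup.subgroupOf_sup Subgroup.le_normalizer hUX)
              rw [e1] at h
              exact h.trans (U.subgroupOf X').index_dvd_card
            rw [hX', Subgroup.card_map_of_injective C.subtype_injective] at h'
            exact hX r hr h'
        obtain ⟨h, hh⟩ := hS.conj _ hpi
        obtain ⟨k', hk', hk'U⟩ := pGroup_fusion hS _ U rfl hUp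
          (by rw [hU, Subgroup.zpowers_le]; exact K.zpow_mem hx a) h
          (fun y hy => hh y (Subgroup.mem_sup_left hy))
        have hk'u := hk'U u (Subgroup.mem_zpowers u)
        have hcC : k'⁻¹ * h ∈ C := by
          rw [hC, Subgroup.mem_centralizer_singleton_iff]
          calc k'⁻¹ * h * u = k'⁻¹ * (h * u * h⁻¹) * h := by group
            _ = k'⁻¹ * (k' * u * k'⁻¹) * h := by rw [hk'u]
            _ = u * (k'⁻¹ * h) := by group
        refine ⟨⟨_, hcC⟩, fun y hy => ?_⟩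
        rw [Subgroup.mem_subgroupOf]
        have := K.mul_mem (K.mul_mem (K.inv_mem hk') (hh y (Subgroup.mem_sup_right ⟨y, hy, rfl⟩))) hk'
        convert this using 1
        simp [mul_assoc]
      · refine Subtype.ext (hS.hom (Q.map C.subtype) ?_ n ?_ ?_ q ⟨q, hq, rfl⟩)
        · intro r hr hrd
          rw [Subgroup.card_map_of_injective C.subtype_injective] at hrd
          exact hQ r hr hrd
        · refine CoprimeAction.mem_normalizer_of_conj_mem ?_
          rintro _ ⟨y, hy, rfl⟩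
          exact ⟨n * y * n⁻¹, (Subgroup.mem_normalizer_iff.1 hn y).1 hy, rfl⟩
        · intro r hr hrd
          exact hn' r hr (by rwa [Subgroup.orderOf_coe] at hrd)
    obtain ⟨k', hk', hk'v⟩ := ih (orderOf (⟨v, hvC⟩ : C)) (by
        rw [← Subgroup.orderOf_coe]; exact hn ▸ hvlt) hSC ⟨v, hvC⟩ (K.zpow_mem hx b) rfl ⟨g', hg'C⟩
      (by rw [Subgroup.mem_subgroupOf]; exact hg'v)
    refine ⟨k * (k' : G), K.mul_mem hk hk', ?_⟩
    have h1 : (k' : G) * v * (k' : G)⁻¹ = g' * v * g'⁻¹ := congrArg Subtype.val hk'v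
    have h2 : (k' : G) * u * (k' : G)⁻¹ = g' * u * g'⁻¹ := by
      rw [Subgroup.mem_centralizer_singleton_iff.1 k'.2, Subgroup.mem_centralizer_singleton_iff.1 hg'C]
      group
    calc k * (k' : G) * x * (k * (k' : G))⁻¹
        = k * ((k' : G) * u * (k' : G)⁻¹ * ((k' : G) * v * (k' : G)⁻¹)) * k⁻¹ := by
          rw [show (k' : G) * u * (k' : G)⁻¹ * ((k' : G) * v * (k' : G)⁻¹) =
            (k' : G) * (u * v) * (k' : G)⁻¹ by group, hab]
          group
      _ = k * (g' * u * g'⁻¹ * (g' * v * g'⁻¹)) * k⁻¹ := by rw [h1, h2]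
      _ = k * (g' * (u * v) * g'⁻¹) * k⁻¹ := by group
      _ = g * x * g⁻¹ := by rw [hab, hg']; group

/-- **`D_π` together with `π`-homogeneity gives a normal `π`-complement.** -/
theorem exists_normal_piComplement [Finite G] (hπ : ∀ p ∈ π, p.Prime) (hD : IsDPiGroup π G)
    (hhom : ∀ H : Subgroup G, H ≠ ⊥ → (∀ p : ℕ, p.Prime → p ∣ Nat.card H → p ∈ π) →
      ∀ p : ℕ, p.Prime → p ∣ (Subgroup.centralizer (H : Set G)).relIndex
        (Subgroup.normalizer (H : Set G)) → p ∈ π) :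
    ∃ N : Subgroup G, ∀ x : G, x ∈ N ↔ PiPrimeElt π x := by
  classical
  obtain ⟨K, hK⟩ : ∃ K, Maximal (IsPiSubgroup π) (K : Subgroup G) :=
    Set.Finite.exists_maximal (Set.toFinite {X : Subgroup G | IsPiSubgroup π X})
      ⟨⊥, fun p hp hd => absurd (Nat.dvd_one.1 (by simpa using hd)) hp.one_lt.ne'⟩
  have hS : Setup π K := by
    refine ⟨hK.prop, fun X hX => ?_, fun Q hQ n hn hn' q hq => ?_⟩
    · obtain ⟨M, hXM, hM⟩ := Set.Finite.exists_le_maximal
        (Set.toFinite {X : Subgroup G | IsPiSubgroup π X}) hX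
      obtain ⟨g, hg⟩ := hD M K hM hK
      exact ⟨g, fun x hx => hg ▸ ⟨x, hXM hx, rfl⟩⟩
    · by_cases hQ1 : Q = ⊥
      · rw [hQ1, Subgroup.mem_bot] at hq
        simp [hq]
      set N := Subgroup.normalizer (Q : Set G)
      set C := Subgroup.centralizer (Q : Set G)
      haveI : (C.subgroupOf N).Normal := ⟨fun c hc m => by
        rw [Subgroup.mem_subgroupOf, Subgroup.mem_centralizer_iff] at hc ⊢
        intro y hy
        have h1 := hc _ ((Subgroup.mem_normalizer_iff''.1 m.2 y).1 hy)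
        simp only [Subgroup.coe_mul, Subgroup.coe_inv]
        calc y * ((m : G) * c * (m : G)⁻¹) = (m : G) * ((m : G)⁻¹ * y * m * c) * (m : G)⁻¹ := by group
          _ = (m : G) * (c * ((m : G)⁻¹ * y * m)) * (m : G)⁻¹ := by rw [h1]
          _ = (m : G) * c * (m : G)⁻¹ * y := by group⟩
      have hmem : (⟨n, hn⟩ : N) ∈ C.subgroupOf N := by
        rw [← QuotientGroup.eq_one_iff]
        by_contra hne
        obtain ⟨r, hr, hrd⟩ := Nat.exists_prime_and_dvd
          (fun h => hne (orderOf_eq_one_iff.1 h))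
        refine hn' r hr ?_ (hhom Q hQ1 hQ r hr (hrd.trans (orderOf_dvd_natCard _)))
        rw [← Subgroup.orderOf_mk n hn]
        exact hrd.trans (orderOf_map_dvd (QuotientGroup.mk' (C.subgroupOf N)) ⟨n, hn⟩)
      exact (Subgroup.mem_centralizer_iff.1 hmem q hq).symm
  have hpiK : ∀ p : ℕ, p.Prime → p ∣ Nat.card G → p ∈ π → ¬ p ∣ K.index := by
    intro p hp _ hpπ
    haveI : Fact p.Prime := ⟨hp⟩
    obtain ⟨P⟩ := (Sylow.nonempty : Nonempty (Sylow p G))
    obtain ⟨g, hg⟩ := hS.conj P (isPiSubgroup_of_isPGroup hpπ P.isPGroup')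
    intro hd
    refine (g • P : Sylow p G).not_dvd_index (hd.trans (Subgroup.index_dvd_of_le ?_))
    rw [Sylow.coe_subgroup_smul]
    exact le_map_conj_iff.2 hg
  obtain ⟨N, hN, hNK, hNK1⟩ := CfsgLib.RealChar.exists_normal_complement (H := K)
    (Nat.coprime_of_dvd fun r hr h1 h2 => hpiK r hr (h1.trans K.card_subgroup_dvd_card) (hS.pi r hr h1) h2)
    (fun x hx y hy hxy => by
      obtain ⟨g, hg⟩ := isConj_iff.1 hxy
      obtain ⟨k, hk, hkx⟩ := element_fusion _ hS x hx rfl g (hg ▸ hy)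
      exact ⟨k, hk, hkx.trans hg⟩)
    (fun E p _ _ hE => by
      obtain ⟨g, hg⟩ := hS.conj E fun r hr hrd => hS.pi r hr (hrd.trans hE)
      exact ⟨g, le_map_conj_iff.2 hg⟩)
  have hc : Subgroup.IsComplement' N K := by
    refine Subgroup.isComplement'_of_disjoint_and_mul_eq_univ (disjoint_iff.2 hNK1) ?_
    rw [← Subgroup.normal_mul, hNK, Subgroup.coe_top]
  refine ⟨N, fun x => ⟨fun hx r hr hrd hrπ => ?_, fun hx => ?_⟩⟩
  · have h1 : r ∣ K.index := by
      rw [hc.index_eq_card]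
      exact hrd.trans (Subgroup.orderOf_dvd_natCard N hx)
    exact hpiK r hr (h1.trans K.index_dvd_card) hrπ h1
  · rw [← QuotientGroup.eq_one_iff (N := N)]
    by_contra hne
    obtain ⟨r, hr, hrd⟩ := Nat.exists_prime_and_dvd (fun h => hne (orderOf_eq_one_iff.1 h))
    refine hx r hr (hrd.trans (orderOf_map_dvd (QuotientGroup.mk' N) x)) (hS.pi r hr ?_)
    rw [← hc.symm.index_eq_card]
    exact hrd.trans (orderOf_dvd_natCard _)

end CfsgLib.DPiHom
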